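import Cfsg.Agent.H419.EP.Soc
import Cfsg.Agent.H59.EP.UB
import Cfsg.Agent.H173.EP.LineBound
import Cfsg.Agent.H729.EPM.PSp
import Cfsg.Agent.H955.Sp
import Cfsg.Agent.S0813
import Cfsg.Agent.S0815
import Cfsg.Agent.S0280
import Cfsg.Agent.S0283
import Cfsg.Agent.S0243
import Cfsg.Agent.S0245
import Cfsg.Agent.S0246
import Cfsg.Agent.S0249
import Cfsg.Agent.S2119
import Cfsg.Agent.ClassicalGeometry.PSL2Basic

/-!
# S3499, residual class rows: tools (helper680)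

* `equiv_of_models`, `card_sp_le` : `|Sp_2k(q)| ≤ 2 |Q|`;
* `idx_le` : the index bound of UB1 + UB2 for `HasSoc A L`, with the hypothesis `TwoGen` (proved: `H59.EP.twoGen`);
* `card_two` : `|A| = n` or `2 n`;
* orders and automorphism groups of `A_n`, `L₂(p)`, `U₃(3)`.
-/

set_option autoImplicit false

namespace Cfsg.Agent.H680.EPR

open Subgroup Cfsg Cfsg.Agent.H284 Cfsg.Agent.H419.EP Cfsg.Agent.H59.EP
open scoped MatrixGroups

section model

variable {Q Q' : Type*} [Group Q] [Group Q'] {ι : Type} [Fintype ι] [DecidableEq ι] {F : Type*} [Field F]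
  {S : Subgroup (GL ι F)}

/-- Two groups with a model on the same `S` are isomorphic. -/
theorem equiv_of_models (m : Model Q S) (m' : Model Q' S) : Nonempty (Q ≃* Q') := by
  have hk : m.π.ker = m'.π.ker := by
    ext s
    rw [MonoidHom.mem_ker, MonoidHom.mem_ker, m.ker, m'.ker]
  exact ⟨(QuotientGroup.quotientKerEquivOfSurjective m.π m.surj).symm.trans
    ((QuotientGroup.quotientMulEquivOfEq hk).trans (QuotientGroup.quotientKerEquivOfSurjective m'.π m'.surj))⟩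

end model

section sp

variable {Q : Type*} [Group Q] {F : Type*} [Field F] [Fintype F] {k : ℕ}

/-- the order of `Q` -/
theorem card_mul (hk : 1 ≤ k) (m : Model Q (Cfsg.spGL k F)) :
    Nat.card Q * Nat.gcd 2 (Fintype.card F - 1) =
      Fintype.card F ^ (k ^ 2) * ∏ i ∈ Finset.range k, (Fintype.card F ^ (2 * (i + 1)) - 1) := by
  obtain ⟨e⟩ := equiv_of_models m (Cfsg.Agent.H729.EPM.modelPSp k F)
  rw [Nat.card_congr e.toEquiv, ← S0245.result rfl k, ← S0246.result rfl k hk]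
  exact (Subgroup.card_eq_card_quotient_mul_card_subgroup _).symm

theorem card_sp_le (hk : 1 ≤ k) (m : Model Q (Cfsg.spGL k F)) :
    Fintype.card F ^ (k ^ 2) * ∏ i ∈ Finset.range k, (Fintype.card F ^ (2 * (i + 1)) - 1) ≤ Nat.card Q * 2 := by
  rw [← card_mul hk m]
  exact Nat.mul_le_mul_left _ (Nat.gcd_le_left _ (by norm_num))

/-- monotonicity -/
theorem sp_mono {c q : ℕ} (h : c ≤ q) (k : ℕ) :
    c ^ (k ^ 2) * ∏ i ∈ Finset.range k, (c ^ (2 * (i + 1)) - 1) ≤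
      q ^ (k ^ 2) * ∏ i ∈ Finset.range k, (q ^ (2 * (i + 1)) - 1) := by
  refine Nat.mul_le_mul (Nat.pow_le_pow_left h _) (Finset.prod_le_prod' fun i _ => ?_)
  exact Nat.sub_le_sub_right (Nat.pow_le_pow_left h _) _

end sp

section soc

variable {Q : Type*} [Group Q] [Finite Q] {A : Subgroup Q}

theorem card_dvd_of_soc {L : Type*} [Group L] (h : HasSoc A L) : Nat.card A ∣ Nat.card (MulAut L) := by
  obtain ⟨f, hf⟩ := h.exists_hom
  exact Subgroup.card_dvd_of_injective f hf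

theorem card_two {L : Type*} [Group L] (h : HasSoc A L) {n : ℕ} (hn : n ≠ 0) (hL : Nat.card L = n)
    (hA : Nat.card (MulAut L) ∣ 2 * n) : Nat.card A = n ∨ Nat.card A = 2 * n := by
  obtain ⟨d, hd⟩ := h.card_dvd
  have h1 := (card_dvd_of_soc h).trans hA
  rw [hL] at hd
  rw [hd, mul_comm 2 n] at h1
  have h2 : d ∣ 2 := Nat.dvd_of_mul_dvd_mul_left (Nat.pos_of_ne_zero hn) h1
  rcases (Nat.dvd_prime Nat.prime_two).1 h2 with rfl | rfl
  · left; rw [hd, mul_one]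
  · right; rw [hd, mul_comm]

/-- **UB1 + UB2** for `HasSoc A L` -/
theorem idx_le (hg : TwoGen.{0}) {Q : Type} [Group Q] [Finite Q] (hs : IsSimpleGroup Q) {A : Subgroup Q}
    {Γ : Subgroup (MulAut Q)} (h : EPT A Γ) {L : Type*} [Group L] (hS : HasSoc A L) (hL : IsSimpleGroup L)
    (hLn : ¬ ∀ a b : L, a * b = b * a) {N : ℕ} (hN : Nat.card A = N) (l : List (ℕ × ℕ))
    (h1 : ∀ x ∈ l, x.1.Prime ∧ 0 < x.2) (h2 : (l.map Prod.fst).Nodup) (h5 : ∀ x ∈ l, 5 ≤ x.1 → x.2 = 1)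
    (hc : N = (l.map fun x => x.1 ^ x.2).prod) {B : ℕ}
    (hB : 1 + ((l.map fun x => gal x.1 x.2).sum * (N / 6) + N ^ 2 / 60) * (2 * (N / 6)) ≤ B) : A.index ≤ B := by
  have hab : ∀ K : Subgroup Q, K ≤ A → (∀ a ∈ A, ∀ k ∈ K, a * k * a⁻¹ ∈ K) → (∀ a ∈ K, ∀ b ∈ K, a * b = b * a) →
      K = ⊥ := fun K hK hKn hKab => hS.no_abelian hL hLn hK hKn hKab
  subst hN
  exact (index_le_of (EPT.ncard_le_list h hg hab l h1 h2 h5 hc)
    (Cfsg.Agent.H173.EP.ub1 hs h (by norm_num) fun _ hx => EPT.six_le h hab hx) le_rfl).trans hB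

theorem kill {B a : ℕ} (hB : A.index ≤ B) (ha : Nat.card A ≤ a) (hlt : a * B < Nat.card Q) : False := by
  have h1 : Nat.card Q = Nat.card A * A.index := (Subgroup.card_mul_index A).symm
  have h2 : Nat.card Q ≤ a * B := by
    rw [h1]
    exact Nat.mul_le_mul ha hB
  omega

/-- both cases -/
theorem kill_two (hg : TwoGen.{0}) {Q : Type} [Group Q] [Finite Q] (hs : IsSimpleGroup Q) {A : Subgroup Q}
    {Γ : Subgroup (MulAut Q)} (h : EPT A Γ) {L : Type*} [Group L] (hS : HasSoc A L) (hL : IsSimpleGroup L)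
    (hLn : ¬ ∀ a b : L, a * b = b * a) {n : ℕ} (hn : n ≠ 0) (hLc : Nat.card L = n)
    (hA : Nat.card (MulAut L) ∣ 2 * n) (l l' : List (ℕ × ℕ))
    (h1 : ∀ x ∈ l, x.1.Prime ∧ 0 < x.2) (h2 : (l.map Prod.fst).Nodup) (h5 : ∀ x ∈ l, 5 ≤ x.1 → x.2 = 1)
    (hc : n = (l.map fun x => x.1 ^ x.2).prod)
    (h1' : ∀ x ∈ l', x.1.Prime ∧ 0 < x.2) (h2' : (l'.map Prod.fst).Nodup) (h5' : ∀ x ∈ l', 5 ≤ x.1 → x.2 = 1)
    (hc' : 2 * n = (l'.map fun x => x.1 ^ x.2).prod) {B B' : ℕ}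
    (hB : 1 + ((l.map fun x => gal x.1 x.2).sum * (n / 6) + n ^ 2 / 60) * (2 * (n / 6)) ≤ B)
    (hB' : 1 + ((l'.map fun x => gal x.1 x.2).sum * (2 * n / 6) + (2 * n) ^ 2 / 60) * (2 * (2 * n / 6)) ≤ B')
    (hlt : n * B < Nat.card Q) (hlt' : 2 * n * B' < Nat.card Q) : False := by
  rcases card_two hS hn hLc hA with hN | hN
  · exact kill (idx_le hg hs h hS hL hLn hN l h1 h2 h5 hc hB) hN.le hlt
  · exact kill (idx_le hg hs h hS hL hLn hN l' h1' h2' h5' hc' hB') hN.le hlt'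

end soc

section groups

theorem card_aut_alt {n : ℕ} (hn : 4 ≤ n) (h6 : n ≠ 6) : Nat.card (MulAut (alternatingGroup (Fin n))) = n.factorial := by
  rw [← Nat.card_congr (Equiv.ofBijective _ (Cfsg.Agent.S2119.result n hn h6)), Nat.card_eq_fintype_card,
    Fintype.card_perm, Fintype.card_fin]

theorem card_aut_psl_two {p : ℕ} [Fact p.Prime] (hp : 4 ≤ p) :
    Nat.card (MulAut (Matrix.ProjectiveSpecialLinearGroup (Fin 2) (ZMod p))) * (p - 1) =
      (p ^ 2 - 1) * (p ^ 2 - p) := by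
  have hF : Fintype.card (ZMod p) = p ^ 1 := by rw [ZMod.card, pow_one]
  have h1 := Cfsg.Agent.S0813.result (F := ZMod p) p 1 le_rfl hF 2 le_rfl (fun _ => by rw [pow_one]; exact hp)
  have h2 := Cfsg.Agent.ClassicalGeometry.PSL2Basic.card_PGL_mul (Fin 2) (ZMod p)
  rw [ZMod.card] at h2
  rw [h1, if_pos rfl, one_mul, one_mul, h2, Matrix.card_GL_field, ZMod.card, Fin.prod_univ_two]
  simp

theorem card_psl_two {p : ℕ} [Fact p.Prime] (hp : Odd p) :
    2 * ((p - 1) * Nat.card (Matrix.ProjectiveSpecialLinearGroup (Fin 2) (ZMod p))) =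
      (p ^ 2 - 1) * (p ^ 2 - p) := by
  have h1 := Cfsg.Agent.S0243.result (F := ZMod p) (ZMod.card p) 2 le_rfl
  have h2 : Nat.gcd 2 (p - 1) = 2 := by
    rw [Nat.gcd_eq_left_iff_dvd]
    obtain ⟨k, rfl⟩ := hp
    exact ⟨k, by omega⟩
  rw [h2, Fin.prod_univ_two] at h1
  rw [h1]
  simp

theorem not_comm_of_card {L : Type*} [Group L] [Finite L] (hL : IsSimpleGroup L) (h : ¬ (Nat.card L).Prime) :
    ¬ ∀ a b : L, a * b = b * a := by
  intro hc
  letI : CommGroup L := { (inferInstance : Group L) with mul_comm := hc }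
  exact h IsSimpleGroup.prime_card

theorem card_u33 {K : Type*} [Field K] [Fintype K] (hK : Fintype.card K = 9) : Nat.card (Cfsg.PSU 3 K 3) = 6048 := by
  have hK' : Fintype.card K = 3 ^ 2 := by rw [hK]; norm_num
  have h1 := S0280.result hK' 3 (by norm_num)
  simp [Finset.prod_range_succ, Nat.even_iff] at h1
  omega

theorem card_aut_u33 {K : Type*} [Field K] [Fintype K] (hK : Fintype.card K = 9) :
    Nat.card (MulAut (Cfsg.PSU 3 K 3)) = 12096 := by
  have h3 : Fact (Nat.Prime 3) := ⟨Nat.prime_three⟩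
  have hK' : Fintype.card K = 3 ^ 2 := by rw [hK]; norm_num
  rw [S0815.result 3 1 le_rfl (by norm_num) hK' 3 (by norm_num) (by norm_num), card_u33 hK]
  norm_num

end groups

end Cfsg.Agent.H680.EPR
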